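import Groth.Agent.Sga3.H772.AffLoc
import Groth.Agent.Sga3.H772.MonoGlue
import Groth.Agent.S0114
import Groth.Agent.S0386
import Groth.Agent.UnramA.LfpOfComp
import Mathlib.AlgebraicGeometry.Morphisms.FlatMono

/-!
# Factorization of a self-flat morphism locally of finite presentation: local existence
-/

set_option autoImplicit false
universe u

open CategoryTheory AlgebraicGeometry Limits TensorProduct

namespace Groth.Agent.Sga3.H772.Fact

open Groth.Agent.Sga3.H772.Equalizer Groth.Agent.Sga3C.FlatPt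

/-- `f` factors as a faithfully flat morphism locally of finite presentation followed by a
monomorphism -/
def HasFact {X Y : Scheme.{u}} (f : X ⟶ Y) : Prop :=
  ∃ (X' : Scheme.{u}) (f' : X ⟶ X') (f'' : X' ⟶ Y),
    Surjective f' ∧ Flat f' ∧ LocallyOfFinitePresentation f' ∧ Mono f'' ∧ f' ≫ f'' = f

/-- criterion for a monomorphism in terms of a flat surjective morphism to its source -/
theorem mono_of_flat_surjective {U V Y : Scheme.{u}} (h : U ⟶ V) (m : V ⟶ Y) [Flat h] [Surjective h]
    (H : ∀ {T : Scheme.{u}} (a b : T ⟶ U), a ≫ h ≫ m = b ≫ h ≫ m → a ≫ h = b ≫ h) : Mono m := by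
  refine ⟨fun {T} a b hab => ?_⟩
  let q₁ : pullback a h ⟶ T := pullback.fst a h
  let q₂ : pullback (q₁ ≫ b) h ⟶ pullback a h := pullback.fst (q₁ ≫ b) h
  have h1 : Epi (q₂ ≫ q₁) := Flat.epi_of_flat_of_surjective (q₂ ≫ q₁)
  rw [← cancel_epi (q₂ ≫ q₁)]
  have e1 : (q₂ ≫ q₁) ≫ a = (q₂ ≫ pullback.snd a h) ≫ h := by
    rw [Category.assoc, Category.assoc, pullback.condition]
  have e2 : (q₂ ≫ q₁) ≫ b = pullback.snd (q₁ ≫ b) h ≫ h := by
    rw [Category.assoc]
    exact pullback.condition
  rw [e1, e2]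
  apply H
  rw [← Category.assoc, ← e1, ← Category.assoc (pullback.snd (q₁ ≫ b) h), ← e2, Category.assoc,
    hab, ← Category.assoc]

/-- two points of `Spec B` with the same image in `Spec A` have the same image in `Spec D`, if
`D` is contained in the equalizer -/
theorem comp_eq_of_le_selfEq {A B : Type u} [CommRing A] [CommRing B] [Algebra A B]
    (D : Subalgebra A B) (hD : D ≤ selfEq A B) {T : Scheme.{u}} (a b : T ⟶ Spec (.of B))
    (h : a ≫ Spec.map (CommRingCat.ofHom (algebraMap A B)) =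
      b ≫ Spec.map (CommRingCat.ofHom (algebraMap A B))) :
    a ≫ Spec.map (CommRingCat.ofHom D.val.toRingHom) =
      b ≫ Spec.map (CommRingCat.ofHom D.val.toRingHom) := by
  obtain ⟨l, hl⟩ : ∃ l : T ⟶ Spec (.of (B ⊗[A] B)),
      l = pullback.lift a b h ≫ (pullbackSpecIso A B B).hom := ⟨_, rfl⟩
  have h1 : a = l ≫ Spec.map (CommRingCat.ofHom Algebra.TensorProduct.includeLeftRingHom) := by
    rw [hl, Category.assoc, pullbackSpecIso_hom_fst, pullback.lift_fst]
  have h2 : b = l ≫ Spec.map (CommRingCat.ofHom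
      ((Algebra.TensorProduct.includeRight : B →ₐ[A] B ⊗[A] B) : B →+* B ⊗[A] B)) := by
    rw [hl, Category.assoc]
    erw [pullbackSpecIso_hom_snd, pullback.lift_snd]
  rw [h1, h2, Category.assoc, Category.assoc, ← Spec.map_comp, ← Spec.map_comp]
  congr 2
  ext d
  exact hD d.2

theorem flat_tensor_of_flat_pullback {A B : Type u} [CommRing A] [CommRing B] [Algebra A B]
    (h : Flat (pullback.fst (Spec.map (CommRingCat.ofHom (algebraMap A B)))
      (Spec.map (CommRingCat.ofHom (algebraMap A B))))) : Module.Flat B (B ⊗[A] B) := by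
  have h1 : Flat ((pullbackSpecIso A B B).inv ≫ pullback.fst _ _) := inferInstance
  rw [pullbackSpecIso_inv_fst', Flat.SpecMap_iff] at h1
  exact RingHom.flat_algebraMap_iff.mp h1

theorem exists_open_of_affine {A B : Type u} [CommRing A] [CommRing B] [Algebra A B]
    [Algebra.FinitePresentation A B]
    (h : Flat (pullback.fst (Spec.map (CommRingCat.ofHom (algebraMap A B)))
      (Spec.map (CommRingCat.ofHom (algebraMap A B))))) (x : Spec (.of B)) :
    ∃ U : (Spec (.of B)).Opens, x ∈ U ∧
      HasFact (U.ι ≫ Spec.map (CommRingCat.ofHom (algebraMap A B))) := by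
  have hfl := flat_tensor_of_flat_pullback h
  obtain ⟨D, hDfg, hD, hx⟩ := Groth.Agent.Sga3.H772.AffLoc.exists_isFlatAt (A := A) x
  let g : Spec (.of B) ⟶ Spec (.of D) := Spec.map (CommRingCat.ofHom D.val.toRingHom)
  let k : Spec (.of D) ⟶ Spec (.of A) := Spec.map (CommRingCat.ofHom (algebraMap A D))
  have hgk : g ≫ k = Spec.map (CommRingCat.ofHom (algebraMap A B)) := by
    rw [← Spec.map_comp]
    rfl
  have hlfp : LocallyOfFinitePresentation g := by
    have h1 : Algebra.FiniteType A D := D.fg_iff_finiteType.mp hDfg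
    have h2 : LocallyOfFiniteType k := by
      rw [HasRingHomProperty.Spec_iff (P := @LocallyOfFiniteType)]
      exact (RingHom.finiteType_algebraMap (A := A) (B := D)).mpr h1
    have h3 : LocallyOfFinitePresentation (g ≫ k) := by
      rw [hgk, LocallyOfFinitePresentation.SpecMap_iff]
      exact (RingHom.finitePresentation_algebraMap (A := A) (B := B)).mpr inferInstance
    exact Groth.Agent.UnramA.LfpOfComp.lfp_of_comp g k h3 h2
  let U : (Spec (.of B)).Opens := ⟨{x | (g.stalkMap x).hom.Flat}, Groth.Agent.S0386.result g⟩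
  have hflat : Flat (U.ι ≫ g) := by
    refine flat_of_forall_isFlatAt _ fun y => ?_
    refine IsFlatAt.comp (isFlatAt_of_flat _ _) ?_
    rw [isFlatAt_iff_stalkMap]
    exact y.2
  refine ⟨U, (isFlatAt_iff_stalkMap _ _).mp hx, ?_⟩
  let V : (Spec (.of D)).Opens := ⟨Set.range (U.ι ≫ g), (U.ι ≫ g).isOpenMap.isOpen_range⟩
  let f' : (U : Scheme) ⟶ V := IsOpenImmersion.lift V.ι (U.ι ≫ g)
    (by rw [Scheme.Opens.range_ι]; exact subset_rfl)
  have hf' : f' ≫ V.ι = U.ι ≫ g := IsOpenImmersion.lift_fac _ _ _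
  have hflat' : Flat f' := by
    have : Flat (f' ≫ V.ι) := by rw [hf']; exact hflat
    exact flat_of_comp_mono f' V.ι
  have hlfp' : LocallyOfFinitePresentation f' := by
    have h1 : LocallyOfFinitePresentation (f' ≫ V.ι) := by rw [hf']; infer_instance
    exact Groth.Agent.UnramA.LfpOfComp.lfp_of_comp f' V.ι h1 inferInstance
  have hsurj : Surjective f' := by
    refine ⟨fun ⟨y, ⟨z, hz⟩⟩ => ⟨z, V.ι.injective ?_⟩⟩
    rw [← Scheme.Hom.comp_apply, hf']
    exact hz
  refine ⟨V, f', V.ι ≫ k, hsurj, hflat', hlfp', ?_, ?_⟩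
  · refine mono_of_flat_surjective f' (V.ι ≫ k) fun {T} a b hab => ?_
    rw [reassoc_of% hf', hgk] at hab
    rw [← cancel_mono V.ι, Category.assoc, Category.assoc, hf', ← Category.assoc, ← Category.assoc]
    exact comp_eq_of_le_selfEq D hD _ _ (by rw [Category.assoc, Category.assoc]; exact hab)
  · rw [reassoc_of% hf', hgk]

end Groth.Agent.Sga3.H772.Fact
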