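import Groth.Agent.Sga3.H772.Fact
import Mathlib.AlgebraicGeometry.Sites.Fpqc

/-!
# Factorization of a self-flat morphism locally of finite presentation: globalization
-/

set_option autoImplicit false
universe u

open CategoryTheory AlgebraicGeometry Limits

namespace Groth.Agent.Sga3.H772.FactGlue

open Groth.Agent.Sga3.H772.Fact Groth.Agent.Sga3C.FlatPt Groth.Agent.Sga3C.FlatOfComp

/-- a cartesian square stays cartesian when composed with a monomorphism -/
theorem isPullback_comp_mono {P X Y Z W : Scheme.{u}} {fst : P ⟶ X} {snd : P ⟶ Y} {f : X ⟶ Z}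
    {g : Y ⟶ Z} (h : IsPullback fst snd f g) (j : Z ⟶ W) [Mono j] :
    IsPullback fst snd (f ≫ j) (g ≫ j) :=
  ⟨⟨by rw [reassoc_of% h.w]⟩, ⟨PullbackCone.IsLimit.mk _
    (fun s => h.lift s.fst s.snd (by
      rw [← cancel_mono j, Category.assoc, Category.assoc, s.condition]))
    (fun s => h.lift_fst _ _ _) (fun s => h.lift_snd _ _ _)
    (fun s m h1 h2 => h.hom_ext (by rw [h1, h.lift_fst]) (by rw [h2, h.lift_snd]))⟩⟩

/-- base change of self-flatness -/
theorem flat_fst_comp {X Y T : Scheme.{u}} (f : X ⟶ Y) (h : Flat (pullback.fst f f)) (a : T ⟶ X) :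
    Flat (pullback.fst (a ≫ f) f) := by
  let u : pullback (a ≫ f) f ⟶ pullback f f := pullback.lift (pullback.fst (a ≫ f) f ≫ a)
    (pullback.snd (a ≫ f) f) (by rw [Category.assoc, pullback.condition])
  have h1 : IsPullback (u ≫ pullback.snd f f) (pullback.fst (a ≫ f) f) f (a ≫ f) := by
    rw [pullback.lift_snd]
    exact (IsPullback.of_hasPullback (a ≫ f) f).flip
  have h2 : IsPullback u (pullback.fst (a ≫ f) f) (pullback.fst f f) a :=
    IsPullback.of_right h1 (pullback.lift_fst _ _ _) (IsPullback.of_hasPullback f f).flip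
  exact MorphismProperty.of_isPullback (P := @Flat) h2 h

/-- self-flatness passes to flat monomorphisms into the source -/
theorem flat_fst_self {X Y X' Y' : Scheme.{u}} (f : X ⟶ Y) (h : Flat (pullback.fst f f))
    (i : X' ⟶ X) [Flat i] (j : Y' ⟶ Y) [Mono j] (f' : X' ⟶ Y') (w : f' ≫ j = i ≫ f) :
    Flat (pullback.fst f' f') := by
  have h1 : IsPullback (pullback.fst f' f') (pullback.snd f' f') (i ≫ f) (i ≫ f) := by
    rw [← w]
    exact isPullback_comp_mono (IsPullback.of_hasPullback f' f') j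
  have h2 := flat_fst_comp f h i
  let u : pullback f' f' ⟶ pullback (i ≫ f) f :=
    pullback.lift (pullback.fst f' f') (pullback.snd f' f' ≫ i) (by rw [h1.w, Category.assoc])
  have hu : u ≫ pullback.fst (i ≫ f) f = pullback.fst f' f' := pullback.lift_fst _ _ _
  have h3 : IsPullback u (pullback.snd f' f') (pullback.snd (i ≫ f) f) i := by
    rw [← hu] at h1
    exact IsPullback.of_right h1 (pullback.lift_snd _ _ _) (IsPullback.of_hasPullback (i ≫ f) f)
  have h4 : Flat u := MorphismProperty.of_isPullback (P := @Flat) h3.flip inferInstance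
  rw [← hu]
  infer_instance

/-- local existence of the factorization -/
theorem exists_local {X Y : Scheme.{u}} (f : X ⟶ Y) [LocallyOfFinitePresentation f]
    (h : Flat (pullback.fst f f)) (x : X) :
    ∃ (U : Scheme.{u}) (j : U ⟶ X), IsOpenImmersion j ∧ x ∈ Set.range j ∧ HasFact (j ≫ f) := by
  obtain ⟨V, hV, hxV, -⟩ := exists_isAffineOpen_mem_and_subset (U := ⊤) (x := f x) trivial
  obtain ⟨W, hW, hxW, hWV⟩ := exists_isAffineOpen_mem_and_subset (U := f ⁻¹ᵁ V) (x := x) hxV
  have hjV : IsOpenImmersion hV.fromSpec := inferInstance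
  have hjW : IsOpenImmersion hW.fromSpec := inferInstance
  let φ := f.appLE V W hWV
  have w : Spec.map φ ≫ hV.fromSpec = hW.fromSpec ≫ f := hV.SpecMap_appLE_fromSpec f hW hWV
  have hφ : φ.hom.FinitePresentation := f.finitePresentation_appLE hV hW hWV
  have hfl : Flat (pullback.fst (Spec.map φ) (Spec.map φ)) :=
    flat_fst_self f h hW.fromSpec hV.fromSpec (Spec.map φ) w
  obtain ⟨z, hz⟩ : x ∈ Set.range hW.fromSpec := by rw [hW.range_fromSpec]; exact hxW
  algebraize [φ.hom]
  obtain ⟨U, hzU, Z, f', f'', h1, h2, h3, h4, h5⟩ :=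
    exists_open_of_affine (A := Γ(Y, V)) (B := Γ(X, W)) hfl z
  refine ⟨U, U.ι ≫ hW.fromSpec, inferInstance, ⟨⟨z, hzU⟩, ?_⟩, Z, f', f'' ≫ hV.fromSpec, h1, h2, h3,
    inferInstance, ?_⟩
  · exact (Scheme.Hom.comp_apply _ _ _).trans hz
  · have h6 : f' ≫ f'' = U.ι ≫ Spec.map φ := h5
    rw [reassoc_of% h6, w, Category.assoc]

/-- the functor represented by the middle of the factorization -/
def Good {X Y : Scheme.{u}} (f : X ⟶ Y) {T : Scheme.{u}} (t : T ⟶ Y) : Prop :=
  Flat (pullback.fst t f) ∧ Surjective (pullback.fst t f)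

/-- the base change square of projections -/
theorem isPullback_fst_comp {X Y T T' : Scheme.{u}} (f : X ⟶ Y) (h : T' ⟶ T) (t : T ⟶ Y) :
    IsPullback (pullback.lift (pullback.fst (h ≫ t) f ≫ h) (pullback.snd (h ≫ t) f)
      (by rw [Category.assoc, pullback.condition])) (pullback.fst (h ≫ t) f) (pullback.fst t f) h := by
  let u : pullback (h ≫ t) f ⟶ pullback t f := pullback.lift (pullback.fst (h ≫ t) f ≫ h)
    (pullback.snd (h ≫ t) f) (by rw [Category.assoc, pullback.condition])
  have h1 : IsPullback (u ≫ pullback.snd t f) (pullback.fst (h ≫ t) f) f (h ≫ t) := by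
    rw [pullback.lift_snd]
    exact (IsPullback.of_hasPullback (h ≫ t) f).flip
  exact IsPullback.of_right h1 (pullback.lift_fst _ _ _) (IsPullback.of_hasPullback t f).flip

theorem good_comp {X Y T T' : Scheme.{u}} (f : X ⟶ Y) (h : T' ⟶ T) (t : T ⟶ Y) (ht : Good f t) :
    Good f (h ≫ t) :=
  ⟨MorphismProperty.of_isPullback (P := @Flat) (isPullback_fst_comp f h t) ht.1,
    MorphismProperty.of_isPullback (P := @Surjective) (isPullback_fst_comp f h t) ht.2⟩

theorem good_of_cover {X Y T : Scheme.{u}} (f : X ⟶ Y) (t : T ⟶ Y) (𝒰 : Scheme.OpenCover.{u} T)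
    (h : ∀ i, Good f (𝒰.f i ≫ t)) : Good f t := by
  have hloc : IsZariskiLocalAtTarget (@Flat.{u}) :=
    HasRingHomProperty.instIsZariskiLocalAtTarget @Flat (Q := RingHom.Flat)
  constructor
  · refine IsZariskiLocalAtTarget.of_openCover (P := @Flat) 𝒰 fun i => ?_
    have h1 := (isPullback_fst_comp f (𝒰.f i) t)
    have h2 := (IsPullback.of_hasPullback (pullback.fst t f) (𝒰.f i))
    have h3 : pullback.snd (pullback.fst t f) (𝒰.f i) =
      (h2.isoIsPullback _ _ h1).hom ≫ pullback.fst (𝒰.f i ≫ t) f := by simp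
    have h4 := (h i).1
    change Flat (pullback.snd (pullback.fst t f) (𝒰.f i))
    rw [h3]
    infer_instance
  · refine IsZariskiLocalAtTarget.of_openCover (P := @Surjective) 𝒰 fun i => ?_
    have h1 := (isPullback_fst_comp f (𝒰.f i) t)
    have h2 := (IsPullback.of_hasPullback (pullback.fst t f) (𝒰.f i))
    have h3 : pullback.snd (pullback.fst t f) (𝒰.f i) =
      (h2.isoIsPullback _ _ h1).hom ≫ pullback.fst (𝒰.f i ≫ t) f := by simp
    have h4 := (h i).2
    change Surjective (pullback.snd (pullback.fst t f) (𝒰.f i))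
    rw [h3]
    infer_instance

/-- the map `T ×_Y U ⟶ T ×_Y V` induced by `p : U ⟶ V` is the base change of `p` -/
theorem isPullback_snd_comp {Y T U V : Scheme.{u}} (t : T ⟶ Y) (p : U ⟶ V) (m : V ⟶ Y) :
    IsPullback (pullback.lift (pullback.fst t (p ≫ m)) (pullback.snd t (p ≫ m) ≫ p)
      (by rw [Category.assoc, pullback.condition])) (pullback.snd t (p ≫ m)) (pullback.snd t m) p := by
  let u : pullback t (p ≫ m) ⟶ pullback t m := pullback.lift (pullback.fst t (p ≫ m))
    (pullback.snd t (p ≫ m) ≫ p) (by rw [Category.assoc, pullback.condition])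
  have h1 : IsPullback (u ≫ pullback.fst t m) (pullback.snd t (p ≫ m)) t (p ≫ m) := by
    rw [pullback.lift_fst]
    exact IsPullback.of_hasPullback t (p ≫ m)
  exact IsPullback.of_right h1 (pullback.lift_snd _ _ _) (IsPullback.of_hasPullback t m)

theorem good_self {X Y : Scheme.{u}} (f : X ⟶ Y) (h : Flat (pullback.fst f f)) {T : Scheme.{u}}
    (a : T ⟶ X) : Good f (a ≫ f) := by
  refine ⟨flat_fst_comp f h a, ⟨fun x => ⟨(pullback.lift (𝟙 T) a (by simp) :
    T ⟶ pullback (a ≫ f) f) x, ?_⟩⟩⟩
  rw [← Scheme.Hom.comp_apply, pullback.lift_fst]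
  rfl

/-- goodness descends along flat surjective morphisms -/
theorem good_of_comp {X Y T T' : Scheme.{u}} (f : X ⟶ Y) (p : T' ⟶ T) [Flat p] [Surjective p]
    (t : T ⟶ Y) (h : Good f (p ≫ t)) : Good f t := by
  let u : pullback (p ≫ t) f ⟶ pullback t f := pullback.lift (pullback.fst (p ≫ t) f ≫ p)
    (pullback.snd (p ≫ t) f) (by rw [Category.assoc, pullback.condition])
  have hu : IsPullback u (pullback.fst (p ≫ t) f) (pullback.fst t f) p := isPullback_fst_comp f p t
  have h1 : Flat u := MorphismProperty.of_isPullback (P := @Flat) hu.flip inferInstance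
  have h2 : Surjective u := MorphismProperty.of_isPullback (P := @Surjective) hu.flip inferInstance
  have h3 := h.1
  have h4 := h.2
  have h5 : Flat (u ≫ pullback.fst t f) := by rw [hu.w]; infer_instance
  have h6 : Surjective (u ≫ pullback.fst t f) := by rw [hu.w]; infer_instance
  exact ⟨flat_of_comp u (pullback.fst t f), Surjective.of_comp u (pullback.fst t f)⟩

end Groth.Agent.Sga3.H772.FactGlue
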