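import Groth.Agent.Sga3.H772.FactGlue

/-!
# Factorization of a self-flat morphism locally of finite presentation: main theorem
-/

set_option autoImplicit false
universe u

open CategoryTheory AlgebraicGeometry Limits

namespace Groth.Agent.Sga3.H772.FactMain

open Groth.Agent.Sga3.H772.Fact Groth.Agent.Sga3.H772.FactGlue Groth.Agent.Sga3C.FlatPt
  Groth.Agent.Sga3C.FlatOfComp

/-- the projections `T ×_Y V ⟶ T` are open immersions -/
theorem isOpenImmersion_fst {X Y T U V : Scheme.{u}} (f : X ⟶ Y) [LocallyOfFinitePresentation f]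
    (t : T ⟶ Y) (ht : Good f t) (j : U ⟶ X) [IsOpenImmersion j] (p : U ⟶ V) (m : V ⟶ Y)
    [Surjective p] [Flat p] [LocallyOfFinitePresentation p] [Mono m] (w : p ≫ m = j ≫ f) :
    IsOpenImmersion (pullback.fst t m) := by
  let a : pullback t (p ≫ m) ⟶ pullback t m := pullback.lift (pullback.fst t (p ≫ m))
    (pullback.snd t (p ≫ m) ≫ p) (by rw [Category.assoc, pullback.condition])
  have ha : IsPullback a (pullback.snd t (p ≫ m)) (pullback.snd t m) p := isPullback_snd_comp t p m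
  have h1 : Flat a := MorphismProperty.of_isPullback (P := @Flat) ha.flip inferInstance
  have h2 : Surjective a := MorphismProperty.of_isPullback (P := @Surjective) ha.flip inferInstance
  have h3 : LocallyOfFinitePresentation a :=
    MorphismProperty.of_isPullback (P := @LocallyOfFinitePresentation) ha.flip inferInstance
  have ha1 : a ≫ pullback.fst t m = pullback.fst t (p ≫ m) := pullback.lift_fst _ _ _
  let b : pullback t (j ≫ f) ⟶ pullback t f := pullback.lift (pullback.fst t (j ≫ f))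
    (pullback.snd t (j ≫ f) ≫ j) (by rw [Category.assoc, pullback.condition])
  have hb : IsPullback b (pullback.snd t (j ≫ f)) (pullback.snd t f) j := isPullback_snd_comp t j f
  have h4 : IsOpenImmersion b :=
    MorphismProperty.of_isPullback (P := @IsOpenImmersion) hb.flip inferInstance
  have hb1 : b ≫ pullback.fst t f = pullback.fst t (j ≫ f) := pullback.lift_fst _ _ _
  have h5 : Flat (pullback.fst t (j ≫ f)) := by
    have := ht.1
    rw [← hb1]
    infer_instance
  have h6 : LocallyOfFinitePresentation (pullback.fst t (j ≫ f)) := by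
    rw [← hb1]
    infer_instance
  have h7 : Flat (a ≫ pullback.fst t m) := by rw [ha1, w]; exact h5
  have h8 : LocallyOfFinitePresentation (a ≫ pullback.fst t m) := by rw [ha1, w]; exact h6
  have h9 : Flat (pullback.fst t m) := flat_of_comp a _
  have h10 : LocallyOfFinitePresentation (pullback.fst t m) := Groth.Agent.S0114.result a _
  exact IsOpenImmersion.of_flat_of_mono _

theorem mem_range_fst {X Y T U V : Scheme.{u}} (f : X ⟶ Y)
    (t : T ⟶ Y) (j : U ⟶ X) (p : U ⟶ V) (m : V ⟶ Y) (w : p ≫ m = j ≫ f)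
    (z : (pullback t f : Scheme.{u})) (hz : pullback.snd t f z ∈ Set.range j) :
    pullback.fst t f z ∈ Set.range (pullback.fst t m) := by
  obtain ⟨y, hy⟩ := hz
  have hb : IsPullback (pullback.lift (pullback.fst t (j ≫ f))
    (pullback.snd t (j ≫ f) ≫ j) (by rw [Category.assoc, pullback.condition]))
      (pullback.snd t (j ≫ f)) (pullback.snd t f) j := isPullback_snd_comp t j f
  obtain ⟨c, hc1, hc2⟩ := Scheme.exists_preimage_of_isPullback hb z y hy.symm
  refine ⟨(pullback.lift (pullback.fst t (j ≫ f)) (pullback.snd t (j ≫ f) ≫ p)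
    (by rw [Category.assoc, w, pullback.condition]) : pullback t (j ≫ f) ⟶ pullback t m) c, ?_⟩
  rw [← Scheme.Hom.comp_apply, pullback.lift_fst, ← hc1, ← Scheme.Hom.comp_apply, pullback.lift_fst]

theorem hasFact {X Y : Scheme.{u}} (f : X ⟶ Y) [LocallyOfFinitePresentation f]
    (h : Flat (pullback.fst f f)) : HasFact f := by
  choose U j hj hx V p m hp1 hp2 hp3 hm hpm using exists_local f h
  obtain ⟨X', m', hm', hgood, huniv⟩ := MonoGlue.exists_mono (Y := Y) (fun {T} t => Good f t)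
    (fun h t ht => good_comp f h t ht) (fun t 𝒰 ht => good_of_cover f t 𝒰 ht) m
    (fun x => good_of_comp f (p x) (m x) (by rw [hpm x]; exact good_self f h (j x)))
    (fun t ht x => isOpenImmersion_fst f t ht (j x) (p x) (m x) (hpm x))
    (fun {T} t ht τ => by
      obtain ⟨z, rfl⟩ := ht.2.surj τ
      exact ⟨pullback.snd t f z, mem_range_fst f t (j _) (p _) (m _) (hpm _) z (hx _)⟩)
  have hf : Good f f := by
    have := good_self f h (𝟙 X)
    rwa [Category.id_comp] at this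
  obtain ⟨s, hs⟩ := huniv f hf
  have hpb : IsPullback s (𝟙 X) m' f := by
    refine ⟨⟨by rw [hs, Category.id_comp]⟩, ⟨PullbackCone.IsLimit.mk _ (fun c => c.snd) (fun c => ?_)
      (fun c => Category.comp_id _) (fun c l h1 h2 => ?_)⟩⟩
    · rw [← cancel_mono m', Category.assoc, hs, c.condition]
    · rw [Category.comp_id] at h2
      exact h2
  have he : s = (hpb.isoIsPullback _ _ (IsPullback.of_hasPullback m' f)).hom ≫ pullback.fst m' f := by
    simp
  have hg1 := hgood.1
  have hg2 := hgood.2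
  refine ⟨X', s, m', ?_, ?_, ?_, hm', hs⟩
  · rw [he]; infer_instance
  · rw [he]; infer_instance
  · rw [he]; infer_instance

theorem flat_fst_of_hasFact {X Y : Scheme.{u}} (f : X ⟶ Y) (h : HasFact f) :
    Flat (pullback.fst f f) := by
  obtain ⟨X', f', f'', h1, h2, h3, h4, rfl⟩ := h
  have h5 := isPullback_comp_mono (IsPullback.of_hasPullback f' f') f''
  have h6 := ((IsPullback.of_hasPullback (f' ≫ f'') (f' ≫ f'')).isoIsPullback_hom_fst _ _ h5)
  rw [← h6]
  infer_instance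

theorem exists_hom {X Y X₁ X₂ : Scheme.{u}} (g₁ : X ⟶ X₁) (h₁ : X₁ ⟶ Y) (g₂ : X ⟶ X₂) (h₂ : X₂ ⟶ Y)
    [Surjective g₁] [Flat g₁] [LocallyOfFinitePresentation g₁] [Mono h₂]
    (w : g₁ ≫ h₁ = g₂ ≫ h₂) : ∃ φ : X₁ ⟶ X₂, g₁ ≫ φ = g₂ ∧ φ ≫ h₂ = h₁ := by
  have H : ∀ {Z : Scheme.{u}} (a b : Z ⟶ X), a ≫ g₁ = b ≫ g₁ → a ≫ g₂ = b ≫ g₂ := by
    intro Z a b hab
    rw [← cancel_mono h₂, Category.assoc, Category.assoc, ← w, reassoc_of% hab]
  refine ⟨EffectiveEpi.desc g₁ g₂ H, EffectiveEpi.fac g₁ g₂ H, ?_⟩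
  have : Epi g₁ := Flat.epi_of_flat_of_surjective g₁
  rw [← cancel_epi g₁, EffectiveEpi.fac_assoc, w]

theorem unique {X Y X₁ X₂ : Scheme.{u}} (g₁ : X ⟶ X₁) (h₁ : X₁ ⟶ Y) (g₂ : X ⟶ X₂) (h₂ : X₂ ⟶ Y)
    [Surjective g₁] [Flat g₁] [LocallyOfFinitePresentation g₁] [Mono h₁]
    [Surjective g₂] [Flat g₂] [LocallyOfFinitePresentation g₂] [Mono h₂]
    (w : g₁ ≫ h₁ = g₂ ≫ h₂) : ∃ φ : X₁ ≅ X₂, g₁ ≫ φ.hom = g₂ ∧ φ.hom ≫ h₂ = h₁ := by
  obtain ⟨a, ha1, ha2⟩ := exists_hom g₁ h₁ g₂ h₂ w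
  obtain ⟨b, hb1, hb2⟩ := exists_hom g₂ h₂ g₁ h₁ w.symm
  refine ⟨⟨a, b, ?_, ?_⟩, ha1, ha2⟩
  · rw [← cancel_mono h₁, Category.assoc, hb2, ha2, Category.id_comp]
  · rw [← cancel_mono h₂, Category.assoc, ha2, hb2, Category.id_comp]

end Groth.Agent.Sga3.H772.FactMain
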